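import Mathlib
import Cfsg.Agent.H1.Quaternion
import Cfsg.Agent.H11.Invol

namespace Cfsg.Agent.H11

open Subgroup

variable {S : Type*} [Group S]

theorem quat_gens [Finite S] (hS : IsPGroup 2 S) (hna : ¬ IsMulCommutative S)
    (hu : ∃! x : S, orderOf x = 2) :
    ∃ (n : ℕ) (a b : S), 1 ≤ n ∧ orderOf a = 2 * 2 ^ n ∧ b ∉ zpowers a ∧
      b * a * b⁻¹ = a⁻¹ ∧ b * b = a ^ 2 ^ n ∧ ∀ c, c ∉ zpowers a → b⁻¹ * c ∈ zpowers a := by
  obtain ⟨z, hz, hzu⟩ := hu
  rcases H1.isCyclic_or_quaternion_gens hS (fun x y hx hy => by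
    by_cases h1 : y = 1
    · rw [h1]; exact Subgroup.one_mem _
    · rw [hzu y (orderOf_eq_prime hy h1), ← hzu x hx]; exact Subgroup.mem_zpowers x) with h | h
  · exact absurd IsCyclic.commutative hna
  · exact h.2

/-- lifting the generators of a generalized quaternion quotient by a central subgroup -/
theorem quat_quot_gens [Finite S] (hS : IsPGroup 2 S) (D : Subgroup S) [D.Normal]
    (hna : ¬ IsMulCommutative (S ⧸ D)) (hu : ∃! x : S ⧸ D, orderOf x = 2) :
    ∃ (a b : S), b * a * b⁻¹ * a ∈ D ∧ (∃ i : ℤ, ∃ d ∈ D, b * b = d * a ^ i) ∧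
      ∀ c, ∃ d ∈ D, ∃ i : ℤ, c = d * a ^ i ∨ c = b * (d * a ^ i) := by
  obtain ⟨n, a, b, -, -, -, h4, h5, h6⟩ := quat_gens (hS.to_quotient D) hna hu
  obtain ⟨a, rfl⟩ := QuotientGroup.mk_surjective a
  obtain ⟨b, rfl⟩ := QuotientGroup.mk_surjective b
  have key : ∀ c : S, (c : S ⧸ D) ∈ zpowers (a : S ⧸ D) → ∃ d ∈ D, ∃ i : ℤ, c = d * a ^ i := by
    rintro c ⟨i, hi⟩
    refine ⟨c * (a ^ i)⁻¹, ?_, i, by group⟩
    rw [← QuotientGroup.eq_one_iff]
    simp only [QuotientGroup.mk_mul, QuotientGroup.mk_inv, QuotientGroup.mk_zpow]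
    rw [← hi]; simp
  refine ⟨a, b, ?_, ?_, fun c => ?_⟩
  · rw [← QuotientGroup.eq_one_iff]
    simp only [QuotientGroup.mk_mul, QuotientGroup.mk_inv]
    rw [h4]; simp
  · obtain ⟨d, hd, i, hi⟩ := key (b * b) (by
      rw [QuotientGroup.mk_mul, h5]; exact Subgroup.npow_mem_zpowers _ _)
    exact ⟨i, d, hd, hi⟩
  · by_cases hc : (c : S ⧸ D) ∈ zpowers (a : S ⧸ D)
    · obtain ⟨d, hd, i, hi⟩ := key c hc
      exact ⟨d, hd, i, Or.inl hi⟩
    · obtain ⟨d, hd, i, hi⟩ := key (b⁻¹ * c) (h6 _ hc)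
      exact ⟨d, hd, i, Or.inr (by rw [← hi]; group)⟩

/-- a group generated by central elements and two commuting elements is abelian -/
theorem comm_of_gens {T : Type*} [Group T] (f : S →* T) (hf : Function.Surjective f)
    {D : Subgroup S} (hD : D ≤ center S) {a b : S} (hab : Commute (f a) (f b))
    (h : ∀ c, ∃ d ∈ D, ∃ i : ℤ, c = d * a ^ i ∨ c = b * (d * a ^ i)) : IsMulCommutative T := by
  have hd : ∀ d ∈ D, ∀ x : S, Commute (f d) (f x) := fun d hd x => by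
    rw [Commute, SemiconjBy, ← map_mul, ← map_mul, (Subgroup.mem_center_iff.1 (hD hd) x)]
  have ha : ∀ x : S, Commute (f a) (f x) := fun x => by
    obtain ⟨d, h1, i, rfl | rfl⟩ := h x <;> simp only [map_mul, map_zpow]
    · exact (hd d h1 a).symm.mul_right ((Commute.refl _).zpow_right i)
    · exact hab.mul_right ((hd d h1 a).symm.mul_right ((Commute.refl _).zpow_right i))
  have hb : ∀ x : S, Commute (f b) (f x) := fun x => by
    obtain ⟨d, h1, i, rfl | rfl⟩ := h x <;> simp only [map_mul, map_zpow]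
    · exact (hd d h1 b).symm.mul_right (hab.symm.zpow_right i)
    · exact (Commute.refl _).mul_right ((hd d h1 b).symm.mul_right (hab.symm.zpow_right i))
  refine ⟨⟨fun x y => ?_⟩⟩
  obtain ⟨x, rfl⟩ := hf x
  obtain ⟨y, rfl⟩ := hf y
  obtain ⟨d, h1, i, rfl | rfl⟩ := h x <;> simp only [map_mul, map_zpow]
  · exact ((hd d h1 y).mul_left ((ha y).zpow_left i)).eq
  · exact ((hb y).mul_left ((hd d h1 y).mul_left ((ha y).zpow_left i))).eq

end Cfsg.Agent.H11
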