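import Cfsg.Agent.H16.M24b
import Cfsg.Agent.H21.Base5
import Cfsg.Agent.H12.Transport

/-! The Sylow `2`-subgroup of `M₂₄` is the group of unitriangular `5 × 5` matrices over `𝔽₂`. -/

set_option autoImplicit false
set_option maxRecDepth 100000

namespace Cfsg.Agent.U5

open Subgroup Cfsg.Agent.H16 Cfsg.Agent.H20 Cfsg.Agent.H21

instance (priority := high) decZ (p : ZMod 2 → Prop) [DecidablePred p] : Decidable (∀ x, p x) :=
  decidable_of_iff (p 0 ∧ p 1) ⟨fun h x => by fin_cases x; exacts [h.1, h.2], fun h => ⟨h 0, h 1⟩⟩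

/-- unitriangular matrices modulo the centre -/
@[ext] structure U9 where
  (a1 a2 a3 b1 b2 b3 s r t : ZMod 2)
  deriving DecidableEq

/-- unitriangular matrices -/
@[ext] structure U10 where
  u : U9
  z : ZMod 2
  deriving DecidableEq

instance (priority := high) dec9 (p : U9 → Prop) [DecidablePred p] : Decidable (∀ x, p x) :=
  decidable_of_iff (∀ s r t a1 a2 a3 b1 b2 b3, p ⟨a1, a2, a3, b1, b2, b3, s, r, t⟩)
    ⟨fun h _ => h .., fun h _ _ _ _ _ _ _ _ _ => h _⟩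

instance (priority := high) dec10 (p : U10 → Prop) [DecidablePred p] : Decidable (∀ x, p x) :=
  decidable_of_iff (∀ u z, p ⟨u, z⟩) ⟨fun h _ => h .., fun h _ _ => h _⟩

instance : Mul U9 := ⟨fun x y => ⟨x.a1 + y.a1, x.a2 + y.a2 + x.a1 * y.s, x.a3 + y.a3 + x.a1 * y.t + x.a2 * y.r,
  x.b1 + y.b1, x.b2 + y.b2 + x.r * y.b1, x.b3 + y.b3 + x.s * y.b2 + x.t * y.b1, x.s + y.s, x.r + y.r,
  x.t + y.t + x.s * y.r⟩⟩
instance : One U9 := ⟨⟨0, 0, 0, 0, 0, 0, 0, 0, 0⟩⟩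
instance : Inv U9 := ⟨fun x => ⟨x.a1, x.a2 + x.a1 * x.s, x.a3 + x.a1 * x.t + x.a2 * x.r + x.a1 * x.s * x.r,
  x.b1, x.b2 + x.r * x.b1, x.b3 + x.s * x.b2 + x.t * x.b1 + x.s * x.r * x.b1, x.s, x.r, x.t + x.s * x.r⟩⟩

theorem mul9 (x y : U9) : x * y = ⟨x.a1 + y.a1, x.a2 + y.a2 + x.a1 * y.s, x.a3 + y.a3 + x.a1 * y.t + x.a2 * y.r,
  x.b1 + y.b1, x.b2 + y.b2 + x.r * y.b1, x.b3 + y.b3 + x.s * y.b2 + x.t * y.b1, x.s + y.s, x.r + y.r,
  x.t + y.t + x.s * y.r⟩ := rfl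

instance : Group U9 := Group.ofLeftAxioms (fun x y w => by ext <;> simp only [mul9] <;> ring)
  (by decide +kernel) (by decide +kernel)

instance : Mul U10 := ⟨fun x y => ⟨x.u * y.u, x.z + y.z + x.u.a1 * y.u.b3 + x.u.a2 * y.u.b2 + x.u.a3 * y.u.b1⟩⟩
instance : One U10 := ⟨⟨1, 0⟩⟩
instance : Inv U10 := ⟨fun x => ⟨x.u⁻¹, x.z + x.u.a1 * x.u⁻¹.b3 + x.u.a2 * x.u⁻¹.b2 + x.u.a3 * x.u⁻¹.b1⟩⟩

theorem mul10 (x y : U10) :
    x * y = ⟨x.u * y.u, x.z + y.z + x.u.a1 * y.u.b3 + x.u.a2 * y.u.b2 + x.u.a3 * y.u.b1⟩ := rfl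

instance : Group U10 := Group.ofLeftAxioms (fun x y w => U10.ext (mul_assoc x.u y.u w.u) (by simp only [mul10, mul9]; ring))
  (by decide +kernel) (by decide +kernel)

abbrev V3 := ZMod 2 × ZMod 2 × ZMod 2

def e9 : U9 ≃ (V3 × V3) × V3 := ⟨fun x => (((x.a1, x.a2, x.a3), (x.b1, x.b2, x.b3)), (x.s, x.r, x.t)),
  fun x => ⟨x.1.1.1, x.1.1.2.1, x.1.1.2.2, x.1.2.1, x.1.2.2.1, x.1.2.2.2, x.2.1, x.2.2.1, x.2.2.2⟩, fun _ => rfl, fun _ => rfl⟩
def e10 : U10 ≃ U9 × ZMod 2 := ⟨fun x => (x.u, x.z), fun x => ⟨x.1, x.2⟩, fun _ => rfl, fun _ => rfl⟩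

theorem card9 : Nat.card U9 = 512 := by rw [Nat.card_congr e9]; simp
theorem card10 : Nat.card U10 = 1024 := by rw [Nat.card_congr e10, Nat.card_prod, card9]; simp
instance : Finite U9 := Nat.finite_of_card_ne_zero (by rw [card9]; decide)
instance : Finite U10 := Nat.finite_of_card_ne_zero (by rw [card10]; decide)

def ρ : U10 →* U9 := MonoidHom.mk' (·.u) fun _ _ => rfl

def ea : U10 := ⟨⟨1, 0, 0, 0, 0, 0, 0, 0, 0⟩, 0⟩
def eb : U10 := ⟨⟨0, 0, 0, 1, 0, 0, 0, 0, 0⟩, 0⟩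
def es : U10 := ⟨⟨0, 0, 0, 0, 0, 0, 1, 0, 0⟩, 0⟩
def er : U10 := ⟨⟨0, 0, 0, 0, 0, 0, 0, 1, 0⟩, 0⟩

theorem ker_ρ : ρ.ker = center U10 := by
  have h1 : ∀ x : U10, ea * x = x * ea → eb * x = x * eb → es * x = x * es → er * x = x * er → x.u = 1 := by
    decide +kernel
  refine le_antisymm (fun x hx => mem_center_iff.2 fun y => ?_) fun x hx =>
    h1 x (mem_center_iff.1 hx _) (mem_center_iff.1 hx _) (mem_center_iff.1 hx _) (mem_center_iff.1 hx _)
  obtain ⟨u, z⟩ := x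
  obtain rfl : u = 1 := hx
  exact U10.ext ((mul_one y.u).trans (one_mul y.u).symm) (by
    simp only [mul10, show (1 : U9) = ⟨0, 0, 0, 0, 0, 0, 0, 0, 0⟩ from rfl]; ring)

def nf {M : Type*} (mul : M → M → M) (one : M) : List M → List (ZMod 2) → M
  | g :: gs, b :: bs => if b = 0 then nf mul one gs bs else mul g (nf mul one gs bs)
  | _, _ => one

def bits (x : U10) : List (ZMod 2) := [x.u.b1, x.u.r, x.u.b2, x.u.s, x.u.t, x.u.b3, x.u.a1, x.u.a2, x.u.a3, x.z]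

def pL : List ℕ := [277393692121426838103327468412800625, 734885709697765217472222313755740256,
  724497903513080427266536831926193254, 976446668295928401926579321926352930, 70403556597652023706560068046064352,
  62617129159507864913675676563309282, 958113710255101534112985782580598912, 958112636554995833171370358174570544,
  568689105771528976252559139049998464, 542742646337963630384820767669541008]

noncomputable def φp (x : U10) : ℕ := nf (pmul 5 24) (pid 5 24) pL (bits x)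

theorem rep_nf {gs : List M24} {ps : List ℕ} (h : List.Forall₂ (fun g p => Rep gpt 24 g (get 5 p)) gs ps)
    (bs : List (ZMod 2)) : Rep gpt 24 (nf (· * ·) 1 gs bs) (get 5 (nf (pmul 5 24) (pid 5 24) ps bs)) := by
  induction h generalizing bs with
  | nil => exact Rep.pid (by decide)
  | cons h _ ih =>
    cases bs with
    | nil => exact Rep.pid (by decide)
    | cons b bs =>
      simp only [nf]
      split_ifs
      exacts [ih bs, h.pmul (by decide) (ih bs)]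

theorem chk1 : ∀ x : U10, (φp (x * ea) = pmul 5 24 (φp x) (φp ea) ∧ φp (x * eb) = pmul 5 24 (φp x) (φp eb)) ∧
    φp (x * es) = pmul 5 24 (φp x) (φp es) ∧ φp (x * er) = pmul 5 24 (φp x) (φp er) := by decide +kernel

theorem chk2 : ∀ x : U10, (∀ i < 24, get 5 (φp x) i = i) → x = 1 := by decide +kernel

theorem nf_mem {H : Submonoid U10} {gs : List U10} (h : ∀ g ∈ gs, g ∈ H) (bs : List (ZMod 2)) :
    nf (· * ·) 1 gs bs ∈ H := by
  induction gs generalizing bs with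
  | nil => exact one_mem _
  | cons g gs ih =>
    cases bs with
    | nil => exact one_mem _
    | cons b bs =>
      simp only [nf]
      split_ifs
      exacts [ih (fun x hx => h x (.tail _ hx)) bs, mul_mem (h g (.head _)) (ih (fun x hx => h x (.tail _ hx)) bs)]

theorem gen {H : Submonoid U10} (ha : ea ∈ H) (hb : eb ∈ H) (hs : es ∈ H) (hr : er ∈ H) (x : U10) : x ∈ H := by
  have c : ∀ {a b}, a ∈ H → b ∈ H → a * b * (a * b) ∈ H := fun ha hb => mul_mem (mul_mem ha hb) (mul_mem ha hb)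
  have h1 : ∀ x, x = nf (· * ·) 1 [eb, er, ⟨⟨0, 0, 0, 0, 1, 0, 0, 0, 0⟩, 0⟩, es, ⟨⟨0, 0, 0, 0, 0, 0, 0, 0, 1⟩, 0⟩,
      ⟨⟨0, 0, 0, 0, 0, 1, 0, 0, 0⟩, 0⟩, ea, ⟨⟨0, 1, 0, 0, 0, 0, 0, 0, 0⟩, 0⟩, ⟨⟨0, 0, 1, 0, 0, 0, 0, 0, 0⟩, 0⟩, ⟨1, 1⟩]
      (bits x) := by decide +kernel
  rw [h1 x]
  refine nf_mem ?_ _
  simp only [List.forall_mem_cons, List.not_mem_nil, false_imp_iff, implies_true, and_true]
  exact ⟨hb, hr, c hr hb, hs, c hs hr, c hs (c hr hb), ha, c ha hs, c (c ha hs) hr, c ha (c hs (c hr hb))⟩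

theorem sylow_M24 (P : Sylow 2 M24) : Nonempty ((P : Subgroup M24) ≃* U10) := by
  obtain ⟨gs, hg⟩ : ∃ gs : List M24, List.Forall₂ (fun g p => Rep gpt 24 g (get 5 p)) gs pL := by
    have h : ∀ p ∈ pL, isM24 p = true := by decide +kernel
    generalize pL = l at h
    induction l with
    | nil => exact ⟨[], .nil⟩
    | cons p l ih =>
      obtain ⟨g, hg⟩ := exists_of_isM24 (h p (.head _))
      obtain ⟨gs, hgs⟩ := ih fun q hq => h q (.tail _ hq)
      exact ⟨g :: gs, .cons hg hgs⟩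
  let φ : U10 → M24 := fun x => nf (· * ·) 1 gs (bits x)
  have h1 : ∀ x, Rep gpt 24 (φ x) (get 5 (φp x)) := fun x => rep_nf hg _
  have h2 : ∀ {x y}, φp (x * y) = pmul 5 24 (φp x) (φp y) → φ (x * y) = φ x * φ y := fun e =>
    (h1 _).M24_eq (e ▸ (h1 _).pmul (by decide) (h1 _))
  have h3 : φ 1 = 1 := (h1 1).M24_eq ((show φp 1 = pid 5 24 from rfl) ▸ Rep.pid (by decide))
  let H : Submonoid U10 := ⟨⟨{y | ∀ x, φ (x * y) = φ x * φ y}, fun {a b} ha hb x => by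
    rw [← mul_assoc, hb, ha, hb, mul_assoc]⟩, fun x => by rw [mul_one, h3, mul_one]⟩
  let f : U10 →* M24 := MonoidHom.mk' φ fun x y => gen (H := H) (fun x => h2 (chk1 x).1.1) (fun x => h2 (chk1 x).1.2)
    (fun x => h2 (chk1 x).2.1) (fun x => h2 (chk1 x).2.2) y x
  have h4 : Function.Injective f := (injective_iff_map_eq_one f).2 fun x hx =>
    chk2 x ((h1 x).unique gpt_inj ((show φ x = 1 from hx) ▸ Rep.one))
  have h5 : ♯f.range = 2 ^ 10 := by rw [← Nat.card_congr (MonoidHom.ofInjective h4).toEquiv, card10]; rfl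
  obtain ⟨Q, hQ⟩ := (sylowOf_mk (H := ⊤) le_top (IsPGroup.of_card h5) (by
    have := card_mul_relIndex (le_top (a := f.range))
    rw [h5, card_top, card_M24] at this
    omega)).exists_sylow_top
  exact ⟨(P.equiv Q).trans ((MulEquiv.subgroupCongr hQ).trans (MonoidHom.ofInjective h4).symm)⟩

theorem sylow_quot (P : Sylow 2 M24) : Nonempty ((P : Subgroup M24) ⧸ center (P : Subgroup M24) ≃* U9) := by
  obtain ⟨e⟩ := sylow_M24 P
  exact ⟨(QuotientGroup.congr _ _ e (ker_ρ ▸ H12.map_center_equiv e)).trans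
    (QuotientGroup.quotientKerEquivOfSurjective ρ fun x => ⟨⟨x, 0⟩, rfl⟩)⟩

end Cfsg.Agent.U5
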